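import Mathlib
import Cfsg.Agent.Blocks.ReynoldsAux
import Cfsg.Agent.Blocks.PrincipalKernel
import Cfsg.Agent.Characters.Brauer
import Cfsg.Agent.CharactersDeep.ScalarIndex
import Cfsg.Agent.S0139
import Cfsg.Agent.CharDeep.LinearChar
import Cfsg.Agent.Blocks.Central

/-!
# A generalized character of the Borel subgroup of `²G₂(27)`

`BData Z P1 P`: a group `B` of order `27 ^ 3 * 26` with normal subgroups `Z ≤ P1 ≤ P` of orders `27`,
`27 ^ 2`, `27 ^ 3` as in the Borel subgroup of `²G₂(27)`. The class function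
`F = 26973 * 1_{1} - 27 * 1_Z - 9 * 1_{P1} - 1_P` is a generalized character of `B`.
-/

set_option autoImplicit false

namespace Cfsg.Agent.H811.ReeB

open Cfsg
open scoped ComplexConjugate

/-- The structure of the Borel subgroup. -/
structure BData {B : Type*} [Group B] (Z P1 P : Subgroup B) : Prop where
  hZP1 : Z ≤ P1
  hP1P : P1 ≤ P
  nZ : Z.Normal
  nP1 : P1.Normal
  nP : P.Normal
  card_Z : Nat.card Z = 27
  card_P1 : Nat.card P1 = 729
  card_P : Nat.card P = 19683
  card_B : Nat.card B = 511758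
  tZ : ∀ x ∈ Z, x ≠ 1 → ∀ y ∈ Z, y ≠ 1 → ∃ b : B, b * x * b⁻¹ = y
  tP1 : ∀ x ∈ P1, x ∉ Z → ∀ y ∈ P1, y ∉ Z → ∃ b : B, ∃ z ∈ Z, b * x * b⁻¹ = y * z ∨
    b * x * b⁻¹ = y⁻¹ * z
  tP : ∀ x ∈ P, x ∉ P1 → ∀ y ∈ P, y ∉ P1 → ∃ b : B, ∃ z ∈ P1, b * x * b⁻¹ = y * z
  cZ : ∀ x ∈ P1, x ∉ Z → ∀ z ∈ Z, ∃ u : B, u * x * u⁻¹ = x * z
  comm : ∀ x ∈ P1, ∀ y ∈ P1, x * y = y * x
  hcomm : ⁅P, P⁆ = P1

variable {B : Type*} [Group B] {Z P1 P : Subgroup B}

open Classical in
/-- The class function `F`. -/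
noncomputable def F (Z P1 P : Subgroup B) (b : B) : ℂ :=
  26973 * (if b = 1 then 1 else 0) - 27 * (if b ∈ Z then 1 else 0) -
    9 * (if b ∈ P1 then 1 else 0) - (if b ∈ P then 1 else 0)

theorem conj_F (b : B) : conj (F Z P1 P b) = F Z P1 P b := by
  unfold F
  simp only [map_sub, map_mul, Complex.conj_ofNat, apply_ite (starRingEnd ℂ), map_one, map_zero]

theorem F_of_not_mem (h : BData Z P1 P) {b : B} (hb : b ∉ P) : F Z P1 P b = 0 := by
  unfold F
  have h1 : b ∉ P1 := fun h' => hb (h.hP1P h')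
  have h2 : b ∉ Z := fun h' => h1 (h.hZP1 h')
  have h3 : b ≠ 1 := fun h' => hb (h' ▸ P.one_mem)
  rw [if_neg h3, if_neg h2, if_neg h1, if_neg hb]
  norm_num

theorem F_one : F Z P1 P (1 : B) = 26936 := by
  unfold F
  rw [if_pos rfl, if_pos Z.one_mem, if_pos P1.one_mem, if_pos P.one_mem]
  norm_num

theorem F_classFunction (h : BData Z P1 P) : IsClassFunction B (F Z P1 P) := by
  intro g b
  have key : ∀ X : Subgroup B, X.Normal → (b * g * b⁻¹ ∈ X ↔ g ∈ X) := fun X hX =>
    ⟨fun h1 => by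
      have := hX.conj_mem _ h1 b⁻¹
      have e : b⁻¹ * (b * g * b⁻¹) * b⁻¹⁻¹ = g := by group
      rwa [e] at this, fun h1 => hX.conj_mem _ h1 b⟩
  have h1 : b * g * b⁻¹ = 1 ↔ g = 1 := by
    rw [mul_inv_eq_one]
    constructor
    · intro h2
      have : b * g = b * 1 := by rw [h2, mul_one]
      exact mul_left_cancel this
    · rintro rfl
      rw [mul_one]
  unfold F
  rw [key Z h.nZ, key P1 h.nP1, key P h.nP, h1]

theorem sum_ind [Fintype B] (X : Subgroup B) [Fintype X] (f : B → ℂ) (inst : DecidablePred (· ∈ X)) :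
    ∑ b, (if b ∈ X then (1 : ℂ) else 0) * f b = ∑ x : X, f x := by
  classical
  simp only [ite_mul, one_mul, zero_mul]
  rw [← Finset.sum_filter]
  refine (Finset.sum_subtype _ (fun x => ?_) _)
  simp

theorem sum_F [Fintype B] [Fintype Z] [Fintype P1] [Fintype P] (f : B → ℂ) :
    ∑ b, F Z P1 P b * f b = 26973 * f 1 - 27 * ∑ x : Z, f x - 9 * ∑ x : P1, f x - ∑ x : P, f x := by
  classical
  have h0 : ∑ b, (if b = 1 then (1 : ℂ) else 0) * f b = f 1 := by
    simp
  have h1 : ∀ b, F Z P1 P b * f b = 26973 * ((if b = 1 then (1 : ℂ) else 0) * f b) -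
      27 * ((if b ∈ Z then (1 : ℂ) else 0) * f b) - 9 * ((if b ∈ P1 then (1 : ℂ) else 0) * f b) -
      (if b ∈ P then (1 : ℂ) else 0) * f b := by
    intro b
    unfold F
    ring
  rw [Finset.sum_congr rfl fun b _ => h1 b, Finset.sum_sub_distrib, Finset.sum_sub_distrib,
    Finset.sum_sub_distrib, ← Finset.mul_sum, ← Finset.mul_sum, ← Finset.mul_sum, h0,
    sum_ind Z, sum_ind P1, sum_ind P]

/-! ### Divisibility of degrees -/

open Cfsg.Agent.Characters.Core

theorem exists_const (h : BData Z P1 P) {χ : B → ℂ} (hχ : IsClassFunction B χ) :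
    ∃ c, ∀ z ∈ Z, z ≠ 1 → χ z = c := by
  have h1 : Z ≠ ⊥ := by
    intro h0
    have := h.card_Z
    rw [h0, Subgroup.card_bot] at this
    norm_num at this
  obtain ⟨⟨z₀, hz⟩, hz1⟩ := Subgroup.ne_bot_iff_exists_ne_one.1 h1
  refine ⟨χ z₀, fun z hz' hz1' => ?_⟩
  obtain ⟨b, hb⟩ := h.tZ z₀ hz (fun h' => hz1 (Subtype.ext h')) z hz' hz1'
  rw [← hb, hχ]

theorem sum_one_add {X : Type*} [Group X] [Fintype X] (f : X → ℂ) (c : ℂ)
    (hf : ∀ x, x ≠ 1 → f x = c) : ∑ x, f x = f 1 + (Nat.card X - 1) * c := by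
  classical
  rw [← Finset.add_sum_erase _ _ (Finset.mem_univ (1 : X)), Finset.sum_congr rfl
    (fun x hx => hf x (Finset.ne_of_mem_erase hx)), Finset.sum_const,
    Finset.card_erase_of_mem (Finset.mem_univ _), Finset.card_univ, nsmul_eq_mul,
    Nat.cast_sub Fintype.card_pos, Nat.card_eq_fintype_card]
  norm_num

/-- The sum of an irreducible character over a coset of a normal subgroup vanishes if the sum over
the subgroup does. -/
theorem sum_coset_eq_zero {χ : B → ℂ} (hχ : IsIrrCharacter B χ) (K : Subgroup B)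
    [hK : K.Normal] [Fintype K] (hs : ∑ x : K, χ x = 0) (g : B) : ∑ x : K, χ (g * x) = 0 := by
  obtain ⟨n, ρ, hρ, rfl⟩ := hχ
  set f : Module.End ℂ (Fin n → ℂ) := ∑ x : K, ρ (x : B) with hf
  have hcomm : ∀ g, f * ρ g = ρ g * f := by
    intro g
    rw [hf, Finset.sum_mul, Finset.mul_sum]
    refine Fintype.sum_equiv (MulAut.conjNormal (g⁻¹) : K ≃* K).toEquiv _ _ fun x => ?_
    rw [← map_mul, ← map_mul]
    congr 1
    simp only [MulEquiv.toEquiv_eq_coe, EquivLike.coe_coe, MulAut.conjNormal_apply, inv_inv]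
    group
  have hsc := Cfsg.Agent.Characters.Central.eq_trace_smul_of_comm ρ hρ f hcomm
  have htr : LinearMap.trace ℂ (Fin n → ℂ) f = ∑ x : K, ρ.character x := by
    rw [hf, map_sum]
    rfl
  rw [htr, hs, zero_div, zero_smul] at hsc
  have h1 : ∑ x : K, ρ.character (g * x) = LinearMap.trace ℂ (Fin n → ℂ) (ρ g * f) := by
    rw [hf, Finset.mul_sum, map_sum]
    refine Finset.sum_congr rfl fun x _ => ?_
    rw [← map_mul]
    rfl
  rw [h1, hsc, mul_zero, map_zero]

theorem apply_eq_of_sum [Finite B] {χ : B → ℂ} (hχ : IsIrrCharacter B χ) (K : Subgroup B)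
    [Fintype K] (hs : ∑ x : K, χ x = (Nat.card K : ℂ) * χ 1) {g : B} (hg : g ∈ K) :
    χ g = χ 1 := by
  classical
  have := Fintype.ofFinite B
  refine Blocks.PrincipalKernel.apply_eq_of_sum_eq (isIrr_isCharacter hχ)
    (S := Finset.univ.filter (· ∈ K)) ?_ (by simpa using hg)
  have h1 : (Finset.univ.filter (· ∈ K)).card = Nat.card K := by
    rw [Nat.card_eq_fintype_card, Fintype.card_subtype]
  rw [h1, ← hs]
  exact Finset.sum_subtype _ (fun x => by simp) _

/-- Elements of the kernel. -/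
theorem apply_mul_of_ker {χ : B → ℂ} (hχ : IsIrrCharacter B χ) {z : B} (hz : χ z = χ 1)
    [Finite B] (g : B) : χ (g * z) = χ g := by
  obtain ⟨n, ρ, hρ, rfl⟩ := hχ
  have h1 : ρ z = 1 := by
    have h2 := Cfsg.Agent.S0139.result ρ z
    exact h2.1 (by rw [hz]; rw [Representation.char_one])
  show LinearMap.trace ℂ _ (ρ (g * z)) = LinearMap.trace ℂ _ (ρ g)
  rw [map_mul, h1, mul_one]


theorem div_of_eq {a b : ℕ} (hb : b ≠ 0) {c : ℂ} (hc : IsIntegral ℤ c) (h : (a : ℂ) + b * c = 0) :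
    b ∣ a := by
  refine CharactersDeep.ScalarIndex.dvd_of_isIntegral_div a b hb ?_
  have hb' : (b : ℂ) ≠ 0 := Nat.cast_ne_zero.2 hb
  have : (a : ℂ) / b = -c := by
    field_simp
    linear_combination h
  rw [this]
  exact hc.neg

/-- Case I: `Z` is not in the kernel. -/
theorem div_I [Finite B] (h : BData Z P1 P) {χ : B → ℂ} (hχ : IsIrrCharacter B χ) [Fintype Z]
    (hs : ∑ x : Z, χ x = 0) {d : ℕ} (hd : χ 1 = d) : 702 ∣ d := by
  classical
  have := Fintype.ofFinite B
  have hnZ := h.nZ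
  have hcf := isIrr_isClassFunction hχ
  obtain ⟨c, hc⟩ := exists_const h hcf
  have h1 : (d : ℂ) + 26 * c = 0 := by
    rw [sum_one_add (fun x : Z => χ x) c (fun x hx => hc x x.2 (fun h' => hx (Subtype.ext h'))),
      h.card_Z] at hs
    rw [Subgroup.coe_one, hd] at hs
    rw [← hs]
    norm_num
  -- vanishing
  have hvan : ∀ x ∈ P1, x ∉ Z → χ x = 0 := by
    intro x hx hxZ
    have h2 := sum_coset_eq_zero hχ Z hs x
    have h3 : ∀ z : Z, χ (x * z) = χ x := by
      intro z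
      obtain ⟨u, hu⟩ := h.cZ x hx hxZ z z.2
      rw [← hu, hcf]
    rw [Finset.sum_congr rfl fun z _ => h3 z, Finset.sum_const, nsmul_eq_mul, Finset.card_univ,
      ← Nat.card_eq_fintype_card, h.card_Z] at h2
    rcases mul_eq_zero.1 h2 with h4 | h4
    · norm_num at h4
    · exact h4
  -- a linear character of `P1`
  let _ : CommGroup P1 := { (inferInstance : Group P1) with
    mul_comm := fun a b => Subtype.ext (h.comm a a.2 b b.2) }
  have hZ1 : Z ≠ ⊥ := by
    intro h0
    have := h.card_Z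
    rw [h0, Subgroup.card_bot] at this
    norm_num at this
  obtain ⟨⟨z₀, hz⟩, hz1⟩ := Subgroup.ne_bot_iff_exists_ne_one.1 hZ1
  obtain ⟨μ, hμ⟩ := CommGroup.exists_apply_ne_one_of_hasEnoughRootsOfUnity P1 ℂ
    (a := ⟨z₀, h.hZP1 hz⟩) (fun h' => hz1 (Subtype.ext (congrArg (fun x : P1 => (x : B)) h')))
  have hμc : IsCharacter P1 (fun x => (μ x : ℂ)) := CharDeep.LinearChar.isCharacter_of_hom μ
  obtain ⟨n, hn⟩ := classInner_isNat (isCharacter_comp P1.subtype (isIrr_isCharacter hχ)) hμc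
  set μ' : B → ℂ := fun b => if hb : b ∈ P1 then (μ ⟨b, hb⟩ : ℂ) else 0 with hμ'
  have hμ'1 : ∀ x : P1, μ' x = μ x := fun x => dif_pos x.2
  have h5 : ∑ x : P1, χ x * conj (μ' x) = ∑ z : Z, χ z * conj (μ' z) := by
    rw [← sum_ind P1 (fun b => χ b * conj (μ' b)) (fun b => Classical.propDecidable _),
      ← sum_ind Z (fun b => χ b * conj (μ' b)) (fun b => Classical.propDecidable _)]
    refine Finset.sum_congr rfl fun b _ => ?_
    by_cases hb : b ∈ Z
    · rw [if_pos hb, if_pos (h.hZP1 hb)]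
    · rw [if_neg hb, zero_mul]
      by_cases hb1 : b ∈ P1
      · rw [hvan b hb1 hb, zero_mul, mul_zero]
      · rw [if_neg hb1, zero_mul]
  have h6 : ∑ z : Z, conj (μ' z) = 0 := by
    rw [← map_sum]
    have h7 := sum_hom_units_eq_zero
      (((Units.coeHom ℂ).comp μ).comp (Subgroup.inclusion h.hZP1)) (by
        intro h8
        apply hμ
        have h9 := DFunLike.congr_fun h8 ⟨z₀, hz⟩
        exact Units.ext h9)
    have h8 : ∀ z : Z, μ' z = (((Units.coeHom ℂ).comp μ).comp (Subgroup.inclusion h.hZP1)) z :=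
      fun z => hμ'1 (Subgroup.inclusion h.hZP1 z)
    rw [Finset.sum_congr rfl fun z _ => h8 z, h7, map_zero]
  have h7 : ∑ z : Z, χ z * conj (μ' z) = d - c := by
    have h8 : ∀ z : Z, χ z * conj (μ' z) = c * conj (μ' z) + (if z = 1 then (d - c : ℂ) else 0) := by
      intro z
      by_cases hz' : z = 1
      · subst hz'
        have h9 : μ' ((1 : Z) : B) = 1 := by
          have := hμ'1 1
          rw [map_one] at this
          exact this
        rw [if_pos rfl, h9, Subgroup.coe_one, hd]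
        simp
      · rw [if_neg hz', hc z z.2 (fun h' => hz' (Subtype.ext h')), add_zero]
    rw [Finset.sum_congr rfl fun z _ => h8 z, Finset.sum_add_distrib, ← Finset.mul_sum, h6,
      mul_zero, zero_add, Finset.sum_ite_eq' Finset.univ (1 : Z)]
    simp
  have h8 : (n : ℂ) = (729 : ℂ)⁻¹ * (d - c) := by
    rw [← h7, ← h5, ← hn]
    unfold classInner
    rw [h.card_P1]
    norm_num
    refine Finset.sum_congr rfl fun x _ => ?_
    rw [hμ'1]
  have h9 : (d : ℂ) = 702 * n := by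
    rw [h8]
    have h10 : c = -(d : ℂ) / 26 := by linear_combination h1 / 26
    rw [h10]
    ring
  exact ⟨n, by exact_mod_cast h9⟩

/-- Case II: `Z` is in the kernel, `P1` is not. -/
theorem div_II [Finite B] (h : BData Z P1 P) {χ : B → ℂ} (hχ : IsIrrCharacter B χ) [Fintype Z]
    [Fintype P1] (hZ : ∑ x : Z, χ x = (Nat.card Z : ℂ) * χ 1) (hs : ∑ x : P1, χ x = 0) {d : ℕ}
    (hd : χ 1 = d) : 39 ∣ d := by
  classical
  have := Fintype.ofFinite B
  have hcf := isIrr_isClassFunction hχ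
  have hker : ∀ z ∈ Z, χ z = χ 1 := fun z hz => apply_eq_of_sum hχ Z hZ hz
  have hmul : ∀ z ∈ Z, ∀ g, χ (g * z) = χ g := fun z hz g => apply_mul_of_ker hχ (hker z hz) g
  have hP1Z : ∃ x₀ ∈ P1, x₀ ∉ Z := by
    by_contra hcon
    push Not at hcon
    have h1 : P1 = Z := le_antisymm hcon h.hZP1
    have h2 := h.card_P1
    rw [h1, h.card_Z] at h2
    norm_num at h2
  obtain ⟨x₀, hx₀, hx₀Z⟩ := hP1Z
  set c : ℂ := χ x₀ + χ x₀⁻¹ with hc
  have hconst : ∀ x ∈ P1, x ∉ Z → χ x + χ x⁻¹ = c := by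
    intro x hx hxZ
    obtain ⟨b, z, hz, hb⟩ := h.tP1 x₀ hx₀ hx₀Z x hx hxZ
    have e1 : χ (b * x₀ * b⁻¹) = χ x₀ := hcf _ _
    have e2 : χ (b * x₀ * b⁻¹)⁻¹ = χ x₀⁻¹ := by
      have : (b * x₀ * b⁻¹)⁻¹ = b * x₀⁻¹ * b⁻¹ := by group
      rw [this, hcf]
    have hz' : ∀ g, χ (z⁻¹ * g) = χ g := by
      intro g
      have h1 : χ (g * z⁻¹) = χ g := hmul _ (Z.inv_mem hz) g
      rw [← h1]
      have := hcf (z⁻¹ * g) z
      rw [← this]
      congr 1
      group
    rw [hc, ← e1, ← e2]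
    rcases hb with hb | hb
    · rw [hb, hmul z hz, mul_inv_rev, hz']
    · rw [hb, hmul z hz, mul_inv_rev, hz', inv_inv, add_comm]
  have hsum : 2 * ∑ x : P1, χ x = 54 * d + 702 * c := by
    have h1 : ∑ x : P1, χ (x : B)⁻¹ = ∑ x : P1, χ x :=
      Fintype.sum_equiv (Equiv.inv P1) _ _ fun x => by simp
    have h2 : 2 * ∑ x : P1, χ x = ∑ x : P1, (χ x + χ (x : B)⁻¹) := by
      rw [Finset.sum_add_distrib, h1, two_mul]
    have h3 : ∑ x : P1, (χ x + χ (x : B)⁻¹) =
        ∑ x : P1, (c + if (x : B) ∈ Z then 2 * (d : ℂ) - c else 0) := by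
      refine Finset.sum_congr rfl fun x _ => ?_
      by_cases hx : (x : B) ∈ Z
      · rw [if_pos hx, hker _ hx, hker _ (Z.inv_mem hx), hd]
        ring
      · rw [if_neg hx, hconst _ x.2 hx, add_zero]
    have h4 : ∑ x : P1, (if (x : B) ∈ Z then 2 * (d : ℂ) - c else 0) = 27 * (2 * (d : ℂ) - c) := by
      rw [← sum_ind P1 (fun b => if b ∈ Z then 2 * (d : ℂ) - c else 0)
        (fun b => Classical.propDecidable _)]
      have h5 : ∀ b : B, (if b ∈ P1 then (1 : ℂ) else 0) * (if b ∈ Z then 2 * (d : ℂ) - c else 0) =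
          (if b ∈ Z then (1 : ℂ) else 0) * (2 * (d : ℂ) - c) := by
        intro b
        by_cases hb : b ∈ Z
        · rw [if_pos hb, if_pos hb, if_pos (h.hZP1 hb)]
        · rw [if_neg hb, if_neg hb, mul_zero, zero_mul]
      rw [Finset.sum_congr rfl fun b _ => h5 b, sum_ind Z (fun _ => 2 * (d : ℂ) - c)
        (fun b => Classical.propDecidable _), Finset.sum_const, Finset.card_univ,
        ← Nat.card_eq_fintype_card, h.card_Z]
      norm_num
    rw [h2, h3, Finset.sum_add_distrib, h4, Finset.sum_const, Finset.card_univ,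
      ← Nat.card_eq_fintype_card, h.card_P1]
    norm_num
    ring
  have h13 : 13 ∣ d := by
    refine div_of_eq (c := c) (by norm_num) ((Blocks.Central.isIntegral_irr hχ _).add
      (Blocks.Central.isIntegral_irr hχ _)) ?_
    rw [hs] at hsum
    linear_combination -hsum / 54
  have h3 : 3 ∣ d := by
    have hP3 : IsPGroup 3 P := IsPGroup.of_card (n := 9) (by rw [h.card_P]; norm_num)
    have : Fact (Nat.Prime 3) := ⟨Nat.prime_three⟩
    obtain ⟨n, hn⟩ := Blocks.ReynoldsAux.exists_dvd_degree hP3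
      (isCharacter_comp P.subtype (isIrr_isCharacter hχ)) (by
        rw [← hs]
        have h1 : (commutator P).map P.subtype = P1 := by
          rw [← h.hcomm, commutator_def, Subgroup.map_commutator, ← MonoidHom.range_eq_map,
            Subgroup.range_subtype]
        let e : commutator P ≃ P1 := Equiv.ofBijective (fun x => ⟨P.subtype x, by
          rw [← h1]; exact ⟨x, x.2, rfl⟩⟩) ⟨fun x y hxy => Subtype.ext (Subtype.ext
            (congrArg (fun z : P1 => (z : B)) hxy)), fun y => by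
              obtain ⟨y, hy⟩ := y
              rw [← h1] at hy
              obtain ⟨x, hx, rfl⟩ := hy
              exact ⟨⟨x, hx⟩, rfl⟩⟩
        exact Fintype.sum_equiv e _ _ fun x => rfl)
    refine ⟨n, ?_⟩
    have h1 : (d : ℂ) = ((3 * n : ℕ) : ℂ) := by
      rw [← hn, ← hd]
      rfl
    exact_mod_cast h1
  exact (Nat.Coprime.mul_dvd_of_dvd_of_dvd (by norm_num) h3 h13 : 3 * 13 ∣ d)

/-- Case III: `P1` is in the kernel, `P` is not. -/
theorem div_III [Finite B] (h : BData Z P1 P) {χ : B → ℂ} (hχ : IsIrrCharacter B χ)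
    [Fintype P1] [Fintype P] (hP1 : ∑ x : P1, χ x = (Nat.card P1 : ℂ) * χ 1)
    (hs : ∑ x : P, χ x = 0) {d : ℕ} (hd : χ 1 = d) : 26 ∣ d := by
  classical
  have := Fintype.ofFinite B
  have hcf := isIrr_isClassFunction hχ
  have hker : ∀ z ∈ P1, χ z = χ 1 := fun z hz => apply_eq_of_sum hχ P1 hP1 hz
  have hmul : ∀ z ∈ P1, ∀ g, χ (g * z) = χ g := fun z hz g => apply_mul_of_ker hχ (hker z hz) g
  have hPP1 : ∃ x₀ ∈ P, x₀ ∉ P1 := by
    by_contra hcon
    push Not at hcon
    have h1 : P = P1 := le_antisymm hcon h.hP1P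
    have h2 := h.card_P
    rw [h1, h.card_P1] at h2
    norm_num at h2
  obtain ⟨x₀, hx₀, hx₀Z⟩ := hPP1
  set c : ℂ := χ x₀ with hc
  have hconst : ∀ x ∈ P, x ∉ P1 → χ x = c := by
    intro x hx hxZ
    obtain ⟨b, z, hz, hb⟩ := h.tP x₀ hx₀ hx₀Z x hx hxZ
    rw [hc, ← hcf x₀ b, hb, hmul z hz]
  have hsum : ∑ x : P, χ x = 729 * d + 18954 * c := by
    have h3 : ∑ x : P, χ x = ∑ x : P, (c + if (x : B) ∈ P1 then (d : ℂ) - c else 0) := by
      refine Finset.sum_congr rfl fun x _ => ?_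
      by_cases hx : (x : B) ∈ P1
      · rw [if_pos hx, hker _ hx, hd]
        ring
      · rw [if_neg hx, hconst _ x.2 hx, add_zero]
    have h4 : ∑ x : P, (if (x : B) ∈ P1 then (d : ℂ) - c else 0) = 729 * ((d : ℂ) - c) := by
      rw [← sum_ind P (fun b => if b ∈ P1 then (d : ℂ) - c else 0)
        (fun b => Classical.propDecidable _)]
      have h5 : ∀ b : B, (if b ∈ P then (1 : ℂ) else 0) * (if b ∈ P1 then (d : ℂ) - c else 0) =
          (if b ∈ P1 then (1 : ℂ) else 0) * ((d : ℂ) - c) := by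
        intro b
        by_cases hb : b ∈ P1
        · rw [if_pos hb, if_pos hb, if_pos (h.hP1P hb)]
        · rw [if_neg hb, if_neg hb, mul_zero, zero_mul]
      rw [Finset.sum_congr rfl fun b _ => h5 b, sum_ind P1 (fun _ => (d : ℂ) - c)
        (fun b => Classical.propDecidable _), Finset.sum_const, Finset.card_univ,
        ← Nat.card_eq_fintype_card, h.card_P1]
      norm_num
    rw [h3, Finset.sum_add_distrib, h4, Finset.sum_const, Finset.card_univ,
      ← Nat.card_eq_fintype_card, h.card_P]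
    norm_num
    ring
  refine div_of_eq (c := c) (by norm_num) (Blocks.Central.isIntegral_irr hχ _) ?_
  rw [hs] at hsum
  linear_combination -hsum / 729

/-- The inner products of `F` with the irreducible characters. -/
theorem inner_int [Fintype B] (h : BData Z P1 P) {χ : B → ℂ} (hχ : IsIrrCharacter B χ) :
    ∃ n : ℤ, classInner (F Z P1 P) χ = n := by
  classical
  have hnZ := h.nZ
  have hnP1 := h.nP1
  have hnP := h.nP
  obtain ⟨d, hd0, hd⟩ := isIrr_apply_one hχ
  have hd0' : (d : ℂ) ≠ 0 := Nat.cast_ne_zero.2 hd0.ne'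
  have h1 : ∑ b, F Z P1 P b * conj (χ b) = 26973 * d - 27 * conj (∑ x : Z, χ x) -
      9 * conj (∑ x : P1, χ x) - conj (∑ x : P, χ x) := by
    rw [sum_F (fun b => conj (χ b)), map_sum, map_sum, map_sum, hd, Complex.conj_natCast]
  have hcard : (Nat.card B : ℂ) = 511758 := by rw [h.card_B]; norm_num
  have hZP : ∑ x : Z, χ x = 0 → ∑ x : P1, χ x = 0 := by
    intro h2
    rcases Blocks.ReynoldsAux.sum_normal_eq_zero_or hχ P1 with h3 | h3
    · exact h3
    · exfalso
      rw [Finset.sum_congr rfl fun x _ => apply_eq_of_sum hχ P1 h3 (h.hZP1 x.2), Finset.sum_const,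
        Finset.card_univ, ← Nat.card_eq_fintype_card, h.card_Z, hd] at h2
      simp [hd0'] at h2
  have hP1P : ∑ x : P1, χ x = 0 → ∑ x : P, χ x = 0 := by
    intro h2
    rcases Blocks.ReynoldsAux.sum_normal_eq_zero_or hχ P with h3 | h3
    · exact h3
    · exfalso
      rw [Finset.sum_congr rfl fun x _ => apply_eq_of_sum hχ P h3 (h.hP1P x.2), Finset.sum_const,
        Finset.card_univ, ← Nat.card_eq_fintype_card, h.card_P1, hd] at h2
      simp [hd0'] at h2
  unfold classInner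
  rw [h1, hcard]
  rcases Blocks.ReynoldsAux.sum_normal_eq_zero_or hχ Z with hZ | hZ
  · -- case I
    obtain ⟨n, hn⟩ := div_I h hχ hZ hd
    rw [hZ, hZP hZ, hP1P (hZP hZ), hn]
    refine ⟨37 * n, ?_⟩
    simp only [map_mul, Complex.conj_natCast, map_zero]
    push_cast
    ring
  · rcases Blocks.ReynoldsAux.sum_normal_eq_zero_or hχ P1 with hP1 | hP1
    · obtain ⟨n, hn⟩ := div_II h hχ hZ hP1 hd
      rw [hZ, hP1, hP1P hP1, h.card_Z, hd, hn]
      refine ⟨2 * n, ?_⟩
      simp only [map_mul, Complex.conj_natCast, map_zero]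
      push_cast
      ring
    · rcases Blocks.ReynoldsAux.sum_normal_eq_zero_or hχ P with hP | hP
      · obtain ⟨n, hn⟩ := div_III h hχ hP1 hP hd
        rw [hZ, hP1, hP, h.card_Z, h.card_P1, hd, hn]
        refine ⟨n, ?_⟩
        simp only [map_mul, Complex.conj_natCast, map_zero]
        push_cast
        ring
      · rw [hZ, hP1, hP, h.card_Z, h.card_P1, h.card_P, hd]
        refine ⟨0, ?_⟩
        simp only [map_mul, Complex.conj_natCast, map_zero]
        push_cast
        ring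

/-- **`F` is a generalized character of `B`.** -/
theorem isGeneralized [Fintype B] (h : BData Z P1 P) : IsGeneralizedCharacter B (F Z P1 P) :=
  Characters.Brauer.isGeneralizedCharacter_of_int (F_classFunction h) fun _ hχ => inner_int h hχ

end Cfsg.Agent.H811.ReeB
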