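import Cfsg.Agent.H811.ReeInst
import Cfsg.Agent.H811.FixExt
import Cfsg.Agent.Blocks.ExistsModular
import Cfsg.Agent.ReeUniq.Model
import Cfsg.Agent.LieRecognition.ReeSetup
import Cfsg.Agent.LieRecognition.ReeTorusTw
import Cfsg.Agent.S1116

/-!
# Extensions of `2`-groups by `²G₂(27)`

* `exists_rdata`: `²G₂(27)` has the local structure `RData`;
* `exists_fixed_two`: an element of order `19` of `²G₂(27)` has nonzero fixed vectors in all nonzero representations
  over fields of characteristic two;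
* `exists_order_38`: a finite group with a quotient `²G₂(27)` modulo a nontrivial normal `2`-subgroup has an element
  of order `38`.
-/

set_option autoImplicit false

namespace Cfsg.Agent.H811.ReeTwo

open Cfsg Cfsg.Lie Cfsg.Agent.H811.ReeB Cfsg.Agent.H811.ReeG Cfsg.Agent.H811.ReeInst
open Cfsg.Agent.ReeUniq Cfsg.Agent.ReeUniq.Model Cfsg.Agent.LieRecognition
open Subgroup

theorem exists_rdata {K : Type*} [Field K] [Fintype K] (hK : Fintype.card K = 3 ^ (2 * 1 + 1)) :
    ∃ Z P1 P B T : Subgroup ↥(twistedG2 K (3 ^ 1)), RData Z P1 P B T := by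
  have hcp : CharP K 3 := ReeAbs.charP_three hK
  have hp3 : Fact (Nat.Prime 3) := ⟨Nat.prime_three⟩
  have hσ : ∀ x : K, iterateFrobenius K 3 (1 + 1) x = x ^ 3 ^ (1 + 1) := fun x => iterateFrobenius_def 3 (1 + 1) x
  have hσ' : ∀ x : K, iterateFrobenius K 3 (1 + 1) x = x ^ 9 := fun x => (hσ x).trans (by norm_num)
  have hK' : Fintype.card K = 27 := hK.trans (by norm_num)
  let R := modelRel hK hσ
  have h3 := three hK
  have hG : Nat.card ↥(twistedG2 K (3 ^ 1)) = 10073444472 := (ReeFinal.card hK).trans (by norm_num)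
  have hfin : Finite ↥(twistedG2 K (3 ^ 1)) := Nat.finite_of_card_ne_zero (by rw [hG]; norm_num)
  have hB : Nat.card (R.B h3) = 511758 := by
    have h1 := Subgroup.card_mul_index (R.B h3)
    rw [index_B R h3, hG, Nat.card_eq_fintype_card (α := K), hK'] at h1
    omega
  obtain ⟨A, A', -, -, hA, -, hN, -, hc, -, -⟩ := ReeSetup.exists_tori (ReeFinal.data hK) le_rfl hK
    (S1116.result hK le_rfl) (fun x hx1 hx => ReeTorusTw.isCyclic_centralizer hK hx1 hx)
  have hA' : Nat.card A = 19 := hA.trans (by norm_num)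
  have hN' : Nat.card (normalizer (A : Set ↥(twistedG2 K (3 ^ 1)))) = 114 := hN.trans (by norm_num)
  refine ⟨Z R h3, P1 R h3, P R h3, R.B h3, A, ?_⟩
  refine ⟨bdata R h3 hK' hσ' hB, P_le R h3, hG, ti R h3, hA', ?_, ?_⟩
  · rw [← hN']
    apply Nat.card_congr
    refine Equiv.subtypeEquivRight fun g => ?_
    constructor
    · intro h
      rw [mem_normalizer_iff]
      have hle : A.map (MulAut.conj g).toMonoidHom ≤ A := by
        rintro _ ⟨x, hx, rfl⟩
        exact h x hx
      have heq : A.map (MulAut.conj g).toMonoidHom = A := by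
        apply Subgroup.eq_of_le_of_card_ge hle
        rw [Nat.card_congr (A.equivMapOfInjective _ (MulAut.conj g).injective).symm.toEquiv]
      intro x
      refine ⟨h x, fun hx => ?_⟩
      rw [← heq] at hx
      obtain ⟨y, hy, hxy⟩ := hx
      have : x = y := by
        have h1 : g * y * g⁻¹ = g * x * g⁻¹ := hxy
        exact (mul_left_cancel (mul_right_cancel h1)).symm
      exact this ▸ hy
    · intro h x hx
      exact (mem_normalizer_iff.1 h x).1 hx
  · intro y hy
    have hnt : Nontrivial A := by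
      rw [← Finite.one_lt_card_iff_nontrivial, hA']
      norm_num
    obtain ⟨x, hx⟩ := exists_ne (1 : A)
    rw [← hc x x.2 (fun h => hx (Subtype.ext h)), mem_centralizer_singleton_iff]
    exact (hy x x.2)

/-- Elements of order `19` have fixed vectors in irreducible representations over a suitable algebraically closed
field of characteristic two. -/
theorem exists_field {K : Type*} [Field K] [Fintype K] (hK : Fintype.card K = 3 ^ (2 * 1 + 1)) :
    ∃ t : ↥(twistedG2 K (3 ^ 1)), orderOf t = 19 ∧ ∃ (k : Type) (_ : Field k) (_ : Algebra (ZMod 2) k),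
      ∀ (n : ℕ) (σ : Representation k ↥(twistedG2 K (3 ^ 1)) (Fin n → k)), σ.IsIrreducible →
        ∃ w, w ≠ 0 ∧ σ t w = w := by
  have f2 : Fact (Nat.Prime 2) := ⟨Nat.prime_two⟩
  have f19 : Fact (Nat.Prime 19) := ⟨by norm_num⟩
  obtain ⟨Z, P1, P, B, T, h⟩ := exists_rdata hK
  have hfin : Finite ↥(twistedG2 K (3 ^ 1)) := Nat.finite_of_card_ne_zero (by rw [h.card_G]; norm_num)
  obtain ⟨M, hM⟩ := Blocks.ExistsModular.exists_isPModular Nat.prime_two
  obtain ⟨V, hV⟩ := H657.exists_above hM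
  have hcp : CharP (IsLocalRing.ResidueField V) 2 := hV.charP hM
  have hac := H657.Above.isAlgClosed V
  obtain ⟨x, hx⟩ := exists_prime_orderOf_dvd_card' (G := T) 19 (by rw [h.card_T])
  refine ⟨x, by rw [Subgroup.orderOf_coe, hx], IsLocalRing.ResidueField V, inferInstance, ZMod.algebra _ 2, ?_⟩
  intro n σ hσ
  let i : H657.IBr V ↥(twistedG2 K (3 ^ 1)) := ⟨fun g => LinearMap.trace _ _ (σ g), n, σ, hσ, fun _ => rfl⟩
  obtain ⟨w, hw, hw'⟩ := fixed h hM hV i
  obtain ⟨e, he⟩ := H657.equiv_of_trace i.rep σ i.rep_irr hσ (fun g => i.trace_rep g)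
  refine ⟨e w, fun h0 => hw (by rwa [LinearEquiv.map_eq_zero_iff] at h0), ?_⟩
  rw [← he, hw' x x.2]

/-- **Modules in characteristic two.** -/
theorem exists_fixed_two {K : Type*} [Field K] [Fintype K] (hK : Fintype.card K = 3 ^ (2 * 1 + 1)) :
    ∃ t : ↥(twistedG2 K (3 ^ 1)), orderOf t = 19 ∧ ∀ (W : Type) (_ : AddCommGroup W)
      (_ : Module (ZMod 2) W) (_ : FiniteDimensional (ZMod 2) W) (_ : Nontrivial W)
      (ρ : Representation (ZMod 2) ↥(twistedG2 K (3 ^ 1)) W), ∃ w, w ≠ 0 ∧ ρ t w = w := by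
  obtain ⟨t, ht, k, hk, halg, h⟩ := exists_field hK
  have f2 : Fact (Nat.Prime 2) := ⟨Nat.prime_two⟩
  exact ⟨t, ht, fun W _ _ _ _ ρ => FixExt.exists_fixed_of_irr h ρ⟩

theorem exists_order_38_aux {K : Type*} [Field K] [Fintype K] (hK : Fintype.card K = 3 ^ (2 * 1 + 1))
    {a : ℕ} (ha : a = 3 ^ 1) {G : Type*} [Group G] [Finite G] (f : G →* ↥(twistedG2 K a))
    (hf : Function.Surjective f) (h2 : IsPGroup 2 f.ker) (h1 : f.ker ≠ ⊥) : ∃ g : G, orderOf g = 38 := by
  subst ha
  have f2 : Fact (Nat.Prime 2) := ⟨Nat.prime_two⟩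
  obtain ⟨t, ht, k, hk, halg, h⟩ := exists_field hK
  exact FixExt.adj_of_irr f hf h2 h1 (by norm_num : Nat.Prime 19) (by norm_num) ht h

/-- **Extensions of `2`-groups by `²G₂(27)`.** -/
theorem exists_order_38_of_surjective {K : Type*} [Field K] [Fintype K] (hK : Fintype.card K = 27)
    {G : Type*} [Group G] [Finite G] (f : G →* ↥(twistedG2 K 3)) (hf : Function.Surjective f)
    (h2 : IsPGroup 2 f.ker) (h1 : f.ker ≠ ⊥) : ∃ g : G, orderOf g = 38 :=
  exists_order_38_aux (hK.trans (by norm_num)) (by norm_num) f hf h2 h1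

/-- **Extensions of `2`-groups by `²G₂(27)`.** -/
theorem exists_order_38 {K : Type*} [Field K] [Fintype K] (hK : Fintype.card K = 27)
    {G : Type*} [Group G] [Finite G] (N : Subgroup G) [N.Normal] (e : G ⧸ N ≃* ↥(twistedG2 K 3))
    (h2 : IsPGroup 2 N) (h1 : N ≠ ⊥) : ∃ g : G, orderOf g = 38 := by
  have hker : (e.toMonoidHom.comp (QuotientGroup.mk' N)).ker = N := by
    ext x
    rw [MonoidHom.mem_ker, MonoidHom.comp_apply]
    show e (x : G ⧸ N) = 1 ↔ x ∈ N
    rw [MulEquiv.map_eq_one_iff, QuotientGroup.eq_one_iff]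
  apply exists_order_38_of_surjective hK (e.toMonoidHom.comp (QuotientGroup.mk' N))
    (e.surjective.comp (QuotientGroup.mk'_surjective N))
  · rw [hker]; exact h2
  · rw [hker]; exact h1

end Cfsg.Agent.H811.ReeTwo
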