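import Cfsg.Agent.H657.IBrBlock
import Cfsg.Agent.S0914
import Cfsg.Agent.CharDeep.LinearChar

/-!
# Characters of defect zero and Brauer characters

`sep`: for an irreducible character `χ` of defect zero and an irreducible Brauer character `φ`, either
`φ` is a multiple of `χ` or `∑ φ(g) conj (χ(g)) = 0`.

`sum_bc`: for a representation `σ` (characteristic `p`) of a group `H` of order prime to `p`,
`∑ bc p σ h` is `|H|` times a natural number, which vanishes if there are no nonzero fixed vectors.
-/

set_option autoImplicit false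

namespace Cfsg.Agent.H811.Sep

open Cfsg IsLocalRing Module Cfsg.Agent.H608.BlockRank Cfsg.Agent.Blocks.Basic
open Cfsg.Agent.Blocks.Local Cfsg.Agent.H657
open scoped ComplexConjugate

attribute [local instance] Above.isAlgClosed

section sep

variable {V : ValuationSubring ℂ} {G : Type*} [Group G] [Finite G] {p : ℕ} {M : Ideal AlgInt}

omit [Finite G] in
theorem isUnion_singleton {χ : IrrCharacter G} (hdef : blockOf M (χ : G → ℂ) = {χ}) :
    IsUnion M ({χ} : Set (IrrCharacter G)) := by
  intro χ₁ ψ h h1
  rw [Set.mem_singleton_iff] at h1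
  subst h1
  rw [← hdef]
  exact h

omit [Finite G] in
theorem isUnion_compl [M.IsPrime] {B : Set (IrrCharacter G)} (hB : IsUnion M B) :
    IsUnion M Bᶜ := by
  intro χ₁ ψ h h1 h2
  exact h1 (hB ψ χ₁ (sameBlock_symm h) h2)

theorem sum_eq_zero_of_mem [Fintype G] {χ : IrrCharacter G} {θ : G → ℂ}
    (h : θ ∈ charSpan ({χ}ᶜ : Set (IrrCharacter G))) : ∑ g, θ g * conj ((χ : G → ℂ) g) = 0 := by
  classical
  unfold charSpan at h
  induction h using Submodule.span_induction with
  | mem x hx =>
    obtain ⟨ψ, hψ, rfl⟩ := hx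
    have h1 : classInner (ψ : G → ℂ) (χ : G → ℂ) = 0 :=
      Characters.Core.classInner_irr_ne ψ.2 χ.2 (fun h => hψ (Subtype.ext h))
    unfold classInner at h1
    rcases mul_eq_zero.1 h1 with h2 | h2
    · have : (Nat.card G : ℂ) ≠ 0 := Nat.cast_ne_zero.2 Nat.card_pos.ne'
      exact absurd (inv_eq_zero.1 h2) this
    · exact h2
  | zero => simp
  | add x y _ _ hx hy =>
    have : ∀ g, (x + y) g * conj ((χ : G → ℂ) g) =
        x g * conj ((χ : G → ℂ) g) + y g * conj ((χ : G → ℂ) g) := fun g => by
      rw [Pi.add_apply, add_mul]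
    rw [Finset.sum_congr rfl fun g _ => this g, Finset.sum_add_distrib, hx, hy, add_zero]
  | smul c x _ hx =>
    have : ∀ g, (c • x) g * conj ((χ : G → ℂ) g) = c * (x g * conj ((χ : G → ℂ) g)) := fun g => by
      rw [Pi.smul_apply, smul_eq_mul, mul_assoc]
    rw [Finset.sum_congr rfl fun g _ => this g, ← Finset.mul_sum, hx, mul_zero]

/-- **Separation.** -/
theorem sep [Fintype G] (hM : IsPModular p M) (hV : Above M V) (χ : IrrCharacter G)
    (hdef : blockOf M (χ : G → ℂ) = {χ}) (hvan : ∀ g, ¬ IsPRegular p g → (χ : G → ℂ) g = 0)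
    (i : IBr V G) :
    (∑ g, phi p i g * conj ((χ : G → ℂ) g) = 0) ∨ ∃ c : ℂ, c ≠ 0 ∧ phi p i = c • (χ : G → ℂ) := by
  have : Fact p.Prime := ⟨hM.1⟩
  have : CharP (ResidueField V) p := hV.charP hM
  have hMp := isPrime_of_isPModular hM
  have hB := isUnion_singleton hdef
  have hpχ : pReg p (χ : G → ℂ) = (χ : G → ℂ) := by
    funext g
    by_cases h : IsPRegular p g
    · rw [pReg_of h]
    · rw [pReg_of_not h, hvan g h]
  by_cases hu : Under i (χ : G → ℂ)
  · right
    have h1 : phi p i ∈ (charSpan ({χ} : Set (IrrCharacter G))).map (pReg p) := by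
      rw [map_pReg_charSpan hM hV hB]
      exact Submodule.subset_span ⟨i, ⟨χ, rfl, hu⟩, rfl⟩
    obtain ⟨θ, hθ, hθ'⟩ := h1
    unfold charSpan at hθ
    rw [SetLike.mem_coe, Set.image_singleton, Submodule.mem_span_singleton] at hθ
    obtain ⟨c, rfl⟩ := hθ
    rw [map_smul, hpχ] at hθ'
    refine ⟨c, ?_, hθ'.symm⟩
    rintro rfl
    rw [zero_smul] at hθ'
    exact (linearIndependent_phi (V := V) (G := G) (p := p)).ne_zero i hθ'.symm
  · left
    obtain ⟨ψ, hψ⟩ := exists_under hM hV i
    have hne : ψ ≠ χ := by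
      rintro rfl
      exact hu hψ
    have h1 : phi p i ∈ (charSpan ({χ}ᶜ : Set (IrrCharacter G))).map (pReg p) := by
      rw [map_pReg_charSpan hM hV (isUnion_compl hB)]
      exact Submodule.subset_span ⟨i, ⟨ψ, hne, hψ⟩, rfl⟩
    obtain ⟨θ, hθ, hθ'⟩ := h1
    rw [← sum_eq_zero_of_mem hθ]
    refine Finset.sum_congr rfl fun g _ => ?_
    by_cases h : IsPRegular p g
    · rw [← hθ', pReg_of h]
    · rw [hvan g h, map_zero, mul_zero, mul_zero]

end sep


section sum

variable {V : ValuationSubring ℂ} {H : Type*} [Group H] {p : ℕ} {M : Ideal AlgInt}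

theorem asAlgebraHom_sum {k : Type*} [Field k] [Fintype H] {U : Type*} [AddCommGroup U]
    [Module k U] (τ : Representation k H U) (f : H → k) :
    τ.asAlgebraHom (∑ g, MonoidAlgebra.single g (f g)) = ∑ g, f g • τ g := by
  rw [map_sum]
  exact Finset.sum_congr rfl fun g _ => by simp

/-- The characteristic polynomials of the composition factors. -/
theorem charpoly_eq_prod {k : Type*} [Field k] [IsAlgClosed k] [Fintype H] {W : Type*}
    [AddCommGroup W] [Module k W] [FiniteDimensional k W] (σ : Representation k H W) {m : ℕ}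
    {n : Fin m → ℕ} (τ : ∀ i, Representation k H (Fin (n i) → k))
    (h : ∀ a : MonoidAlgebra k H,
      LinearMap.det (σ.asAlgebraHom a) = ∏ i, LinearMap.det ((τ i).asAlgebraHom a)) (g : H) :
    LinearMap.charpoly (σ g) = ∏ i, LinearMap.charpoly (τ i g) := by
  classical
  have : Infinite k := IsAlgClosed.instInfinite
  refine Polynomial.funext fun t => ?_
  have h1 := h (∑ x, MonoidAlgebra.single x ((if x = 1 then t else 0) -
    (if x = g then (1 : k) else 0)))
  rw [asAlgebraHom_sum, sum_aux, ← LinearMap.eval_charpoly] at h1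
  rw [h1, Polynomial.eval_prod]
  refine Finset.prod_congr rfl fun i _ => ?_
  rw [asAlgebraHom_sum, sum_aux, ← LinearMap.eval_charpoly]

/-- The Brauer character is additive. -/
theorem bc_eq_sum [Fintype H] {W : Type*} [AddCommGroup W] [Module (ResidueField V) W]
    [FiniteDimensional (ResidueField V) W] (σ : Representation (ResidueField V) H W) {m : ℕ}
    {n : Fin m → ℕ} (τ : ∀ i, Representation (ResidueField V) H (Fin (n i) → ResidueField V))
    (h : ∀ a : MonoidAlgebra (ResidueField V) H,
      LinearMap.det (σ.asAlgebraHom a) = ∏ i, LinearMap.det ((τ i).asAlgebraHom a)) (g : H) :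
    bc p σ g = ∑ i, bc p (τ i) g := by
  unfold bc
  rw [charpoly_eq_prod σ τ h g, Polynomial.roots_prod _ _ (Finset.prod_ne_zero_iff.2 fun i _ =>
      (LinearMap.charpoly_monic _).ne_zero), Multiset.map_bind, Multiset.sum_bind]
  rfl


/-- The trivial irreducible representation. -/
noncomputable def triv (V : ValuationSubring ℂ) (H : Type*) [Group H] : IBr V H :=
  ⟨fun _ => 1, 1, 1, CharDeep.LinearChar.isIrreducible_of_finrank _ (by simp), fun g => by
    rw [MonoidHom.one_apply, LinearMap.trace_one]
    simp⟩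

theorem charDegree_one : charDegree (fun _ : H => (1 : ℂ)) = 1 := by
  unfold charDegree
  simp

theorem isPRegular_of [Finite H] (hp : ¬ p ∣ Nat.card H) (h : H) : IsPRegular p h :=
  fun h1 => hp (h1.trans (orderOf_dvd_natCard h))

theorem phi_triv [Fact p.Prime] [CharP (ResidueField V) p] (h : H) (hreg : IsPRegular p h) :
    phi p (triv V H) h = 1 := by
  rw [phi_eq_bc (triv V H) (n := 1) 1
    (CharDeep.LinearChar.isIrreducible_of_finrank _ (by simp)) (fun g => by
      rw [MonoidHom.one_apply, LinearMap.trace_one]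
      simp [triv]) hreg]
  unfold bc
  have h1 : LinearMap.charpoly ((1 : Representation (ResidueField V) H
      (Fin 1 → ResidueField V)) h) = Polynomial.X - Polynomial.C 1 := by
    rw [MonoidHom.one_apply, LinearMap.charpoly_one]
    simp
  rw [h1, Polynomial.roots_X_sub_C, Multiset.map_singleton, Multiset.sum_singleton]
  have h2 := lift_residue (p := p) (V := V) (z := 1) ⟨1, by
    have hp : p.Prime := Fact.out
    exact fun h => hp.one_lt.ne' (Nat.dvd_one.1 h), by simp⟩
  rw [map_one] at h2
  rw [h2]
  rfl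

/-- An irreducible Brauer character of a `p'`-group is orthogonal to the trivial character or
trivial. -/
theorem sum_phi_or [Fintype H] (hM : IsPModular p M) (hV : Above M V) (hp : ¬ p ∣ Nat.card H)
    (i : IBr V H) : (∑ h, phi p i h = 0) ∨ i = triv V H := by
  have : Fact p.Prime := ⟨hM.1⟩
  have : CharP (ResidueField V) p := hV.charP hM
  set χ : IrrCharacter H := ⟨fun _ => 1, isIrrCharacter_one⟩ with hχ
  have hdef : blockOf M (χ : H → ℂ) = {χ} := by
    refine (Cfsg.Agent.S0914.result p M hM χ).1 ?_
    rw [hχ, charDegree_one, Nat.div_one]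
    exact hp
  rcases sep hM hV χ hdef (fun g hg => absurd (isPRegular_of hp g) hg) i with h | ⟨c, hc, h⟩
  · left
    rw [← h]
    refine Finset.sum_congr rfl fun g _ => ?_
    rw [hχ]
    simp
  · right
    have h1 : phi p i = c • phi p (triv V H) := by
      rw [h]
      funext g
      rw [Pi.smul_apply, Pi.smul_apply, phi_triv g (isPRegular_of hp g)]
    by_contra hne
    have h2 := (linearIndependent_phi (V := V) (G := H) (p := p)).notMem_span_image
      (s := {triv V H}) (x := i) (by simpa using hne)
    apply h2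
    rw [Set.image_singleton, Submodule.mem_span_singleton]
    exact ⟨c, h1.symm⟩

theorem sum_aux' {k : Type*} [Field k] [Fintype H] [DecidableEq H] {U : Type*} [AddCommGroup U]
    [Module k U] (ρ : Representation k H U) (t : k) :
    ∑ x, ((if x = 1 then t else 0) - (1 : k)) • ρ x =
      algebraMap k (Module.End k U) t - ∑ x, ρ x := by
  have h3 : ∀ x, ((if x = 1 then t else 0) - (1 : k)) • ρ x =
      (if x = 1 then t • ρ x else 0) - ρ x := fun x => by
    rw [sub_smul, ite_smul, zero_smul, one_smul]
  rw [Finset.sum_congr rfl fun x _ => h3 x, Finset.sum_sub_distrib]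
  simp only [Finset.sum_ite_eq', Finset.mem_univ, if_true]
  rw [map_one, Algebra.algebraMap_eq_smul_one]

theorem trace_eq_one_of {k : Type*} [Field k] {n : ℕ} (τ : Representation k H (Fin n → k))
    (h : ∀ g, τ g = 1) (hirr : τ.IsIrreducible) : n = 1 := by
  obtain ⟨h1, h2⟩ := (CharDeep.LinearChar.isIrreducible_iff τ).1 hirr
  obtain ⟨v, hv⟩ := exists_ne (0 : Fin n → k)
  rcases h2 (Submodule.span k {v}) (fun g w hw => by rw [h g]; exact hw) with h3 | h3
  · exact absurd (Submodule.span_singleton_eq_bot.1 h3) hv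
  · have h4 := finrank_span_singleton (K := k) hv
    rw [h3, finrank_top] at h4
    simpa using h4

/-- **The Brauer character of a representation of a `p'`-group, summed over the group.** -/
theorem sum_bc [Fintype H] (hM : IsPModular p M) (hV : Above M V) (hp : ¬ p ∣ Nat.card H)
    {W : Type*} [AddCommGroup W] [Module (ResidueField V) W]
    [FiniteDimensional (ResidueField V) W] (σ : Representation (ResidueField V) H W) :
    ∃ n : ℕ, ∑ h, bc p σ h = (Nat.card H : ℂ) * n ∧
      ((∀ w, (∀ h, σ h w = w) → w = 0) → n = 0) := by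
  classical
  have : Fact p.Prime := ⟨hM.1⟩
  have : CharP (ResidueField V) p := hV.charP hM
  obtain ⟨m, n, τ, hτ, hdet⟩ := Factors.exists_factors σ
  -- the index of a factor
  let idx : Fin m → IBr V H := fun l => ⟨fun g => LinearMap.trace (ResidueField V) _ (τ l g),
    n l, τ l, hτ l, fun g => rfl⟩
  have hphi : ∀ l g, bc p (τ l) g = phi p (idx l) g := fun l g =>
    (phi_eq_bc (idx l) (τ l) (hτ l) (fun g => rfl) (isPRegular_of hp g)).symm
  have htriv : ∀ l, idx l = triv V H → ∀ g, τ l g = 1 := by
    intro l hl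
    obtain ⟨e, he⟩ := equiv_of_trace (τ l) (1 : Representation (ResidueField V) H
      (Fin 1 → ResidueField V)) (hτ l) (CharDeep.LinearChar.isIrreducible_of_finrank _ (by simp))
      (fun g => by
        have h1 := congrFun (congrArg Subtype.val hl) g
        change LinearMap.trace (ResidueField V) _ (τ l g) = 1 at h1
        rw [h1, MonoidHom.one_apply, LinearMap.trace_one]
        simp)
    intro g
    apply LinearMap.ext
    intro w
    apply e.injective
    rw [he]
    rfl
  refine ⟨(Finset.univ.filter fun l => idx l = triv V H).card, ?_, ?_⟩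
  · have h1 : ∀ h, bc p σ h = ∑ l, phi p (idx l) h := fun h => by
      rw [bc_eq_sum σ τ hdet h]
      exact Finset.sum_congr rfl fun l _ => hphi l h
    rw [Finset.sum_congr rfl fun h _ => h1 h, Finset.sum_comm]
    have h2 : ∀ l, ∑ h, phi p (idx l) h = if idx l = triv V H then (Nat.card H : ℂ) else 0 := by
      intro l
      split_ifs with h3
      · rw [h3, Finset.sum_congr rfl fun h _ => phi_triv h (isPRegular_of hp h)]
        simp
      · exact (sum_phi_or hM hV hp (idx l)).resolve_right h3
    rw [Finset.sum_congr rfl fun l _ => h2 l, Finset.sum_ite, Finset.sum_const,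
      Finset.sum_const_zero, add_zero, nsmul_eq_mul, mul_comm]
  · intro hW
    rw [Finset.card_eq_zero, Finset.filter_eq_empty_iff]
    intro l _ hl
    have h1 : (∑ h, σ h : Module.End (ResidueField V) W) = 0 := by
      apply LinearMap.ext
      intro w
      apply hW
      intro g
      rw [LinearMap.sum_apply, map_sum]
      refine Fintype.sum_equiv (Equiv.mulLeft g) _ _ fun h => ?_
      rw [Equiv.coe_mulLeft, map_mul]
      rfl
    set t : ResidueField V := (Nat.card H : ResidueField V) with ht
    have ht0 : t ≠ 0 := by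
      rw [ht]
      intro h0
      exact hp ((CharP.cast_eq_zero_iff (ResidueField V) p _).1 h0)
    have h2 := hdet (∑ x, MonoidAlgebra.single x ((if x = 1 then t else 0) -
      (1 : ResidueField V)))
    rw [asAlgebraHom_sum] at h2
    rw [sum_aux' σ, h1, sub_zero] at h2
    have h4 : LinearMap.det ((τ l).asAlgebraHom (∑ x, MonoidAlgebra.single x
        ((if x = 1 then t else 0) - (1 : ResidueField V)))) = 0 := by
      rw [asAlgebraHom_sum, sum_aux' (τ l)]
      have h5 : ∑ x, (τ l) x = algebraMap (ResidueField V)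
          (Module.End (ResidueField V) (Fin (n l) → ResidueField V)) t := by
        rw [Finset.sum_congr rfl fun x _ => htriv l hl x, Finset.sum_const, Finset.card_univ,
          ht, Algebra.algebraMap_eq_smul_one, Nat.card_eq_fintype_card, Nat.cast_smul_eq_nsmul]
      rw [h5, sub_self]
      have h6 : n l = 1 := trace_eq_one_of (τ l) (htriv l hl) (hτ l)
      have h7 : Nontrivial (Fin (n l) → ResidueField V) := by
        rw [h6]
        infer_instance
      exact LinearMap.det_zero'' 
    rw [Finset.prod_eq_zero (Finset.mem_univ l) h4, Algebra.algebraMap_eq_smul_one,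
      LinearMap.det_smul, map_one, mul_one] at h2
    exact pow_ne_zero _ ht0 h2

/-- **The Brauer character summed along a homomorphism from a `p'`-group.** -/
theorem sum_phi_hom {G K : Type*} [Group G] [Group K] [Fintype K] (hM : IsPModular p M)
    (hV : Above M V) (i : IBr V G) (f : K →* G) (hp : ¬ p ∣ Nat.card K) :
    ∃ n : ℕ, ∑ h : K, phi p i (f h) = (Nat.card K : ℂ) * n ∧
      ((∀ w, (∀ h : K, i.rep (f h) w = w) → w = 0) → n = 0) := by
  obtain ⟨n, h1, h2⟩ := sum_bc hM hV hp (i.rep.comp f)
  refine ⟨n, ?_, fun h => h2 fun w hw => h w hw⟩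
  rw [← h1]
  refine Finset.sum_congr rfl fun g _ => ?_
  have h3 : IsPRegular p (f g) := fun h4 => isPRegular_of hp g (h4.trans (orderOf_map_dvd f g))
  rw [phi_of i h3]
  rfl

/-- **The Brauer character summed over a `p'`-subgroup.** -/
theorem sum_phi {G : Type*} [Group G] (hM : IsPModular p M) (hV : Above M V) (i : IBr V G)
    (K : Subgroup G) [Fintype K] (hp : ¬ p ∣ Nat.card K) :
    ∃ n : ℕ, ∑ h : K, phi p i h = (Nat.card K : ℂ) * n ∧
      ((∀ w, (∀ h ∈ K, i.rep h w = w) → w = 0) → n = 0) := by
  obtain ⟨n, h1, h2⟩ := sum_phi_hom hM hV i K.subtype hp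
  exact ⟨n, h1, fun h => h2 fun w hw => h w fun g hg => hw ⟨g, hg⟩⟩

end sum

end Cfsg.Agent.H811.Sep
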